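import Groth.Agent.Sga4h.H913.ConstDet
import Groth.Agent.S0002
import Groth.Agent.Fdesc.StructMod

/-!
# `det(1 - X F | H^n(Y_K, ℤ/p)) = det(1 - X Frob_q | H^n(Y, O_Y))`, `Y` proper over a finite field
-/

set_option autoImplicit false
universe u

open CategoryTheory CategoryTheory.Limits AlgebraicGeometry Opposite

namespace Groth.Agent.Sga4h.H913.ConstDetMain

open Groth.Agent.CurvesA Groth.Agent.Sga4h.H925.Defs Groth.Agent.Sga4h.H569.DetRev Polynomial

variable {k : Type u} [Field k] [Fintype k] {K : Type u} [Field K] [Algebra k K]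
  [Algebra.IsAlgebraic k K] [Fact FinFr.PullExact.{u}] [IsAlgClosed K]
  (p : ℕ) [Fact p.Prime] (hk : (p : k) = 0) {Y : Scheme.{u}}
  (b : Y ⟶ Spec (CommRingCat.of k)) [IsProper b]
  (φ : Coh.toAb (Coh.structureModule Y) ⟶ Coh.toAb (Coh.structureModule Y))
  (hφ : ∀ (U : (Y.Opens)ᵒᵖ) (a : Y.ringCatSheaf.obj.obj U), φ.hom.app U a = a ^ Fintype.card k)

include hφ

/-- Determinant formula, in `K[X]`. -/
theorem detRev_map (hK : (p : K) = 0) (n : ℕ)
    (t : letI : Y.Over (Spec (CommRingCat.of k)) := ⟨b⟩;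
      Coh.HH Y (Coh.structureModule Y) n →ₗ[k] Coh.HH Y (Coh.structureModule Y) n)
    (ht : ∀ x, t x = Sheaf.H.map φ n x) :
    letI : Y.Over (Spec (CommRingCat.of k)) := ⟨b⟩
    (detRev t).map (algebraMap k K) =
      (detRev (frobK K b (FinFr.constLam (ZMod p) Y) n)).map (ASAlg.zmodHom K p hK) := by
  let _ : Y.Over (Spec (CommRingCat.of k)) := ⟨b⟩
  have hp : IsProper (Y ↘ Spec (CommRingCat.of k)) := ‹IsProper b›
  have hk : (p : k) = 0 := (algebraMap k K).injective (by rw [map_natCast, hK, map_zero])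
  have : CharP k p := (CharP.charP_iff_prime_eq_zero (Fact.out : p.Prime)).2 hk
  obtain ⟨f, -, hq⟩ := FiniteField.card k p
  have hc : CompactSpace Y := (quasiCompact_iff_compactSpace b).1 inferInstance
  have hs : QuasiSeparatedSpace Y := quasiSeparatedSpace_of_quasiSeparated b
  exact ConstDet.det_zmod (K := K) p hk hK f f.pos hq b (fun m =>
    Groth.Agent.S0002.result k Y (Coh.structureModule Y)
      (Groth.Agent.Fdesc.StructMod.isCoh_structureModule Y) m) φ hφ n t ht

/-- Determinant formula, in `k[X]`. -/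
theorem detRev_eq (n : ℕ)
    (t : letI : Y.Over (Spec (CommRingCat.of k)) := ⟨b⟩;
      Coh.HH Y (Coh.structureModule Y) n →ₗ[k] Coh.HH Y (Coh.structureModule Y) n)
    (ht : ∀ x, t x = Sheaf.H.map φ n x) :
    letI : Y.Over (Spec (CommRingCat.of k)) := ⟨b⟩
    detRev t = (detRev (frobK K b (FinFr.constLam (ZMod p) Y) n)).map (ASAlg.zmodHom k p hk) := by
  let _ : Y.Over (Spec (CommRingCat.of k)) := ⟨b⟩
  have hK : (p : K) = 0 := by rw [← map_natCast (algebraMap k K), hk, map_zero]
  apply Polynomial.map_injective (algebraMap k K) (algebraMap k K).injective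
  rw [detRev_map (K := K) p b φ hφ hK n t ht, Polynomial.map_map]
  congr 1
  exact RingHom.ext_zmod _ _

/-- Determinant formula, in `k[X]`, for `FinFr.charRev` and `FinFr.frob`. -/
theorem charRev_eq (n : ℕ)
    (t : letI : Y.Over (Spec (CommRingCat.of k)) := ⟨b⟩;
      Coh.HH Y (Coh.structureModule Y) n →ₗ[k] Coh.HH Y (Coh.structureModule Y) n)
    (ht : ∀ x, t x = Sheaf.H.map φ n x) :
    letI : Y.Over (Spec (CommRingCat.of k)) := ⟨b⟩
    detRev t = (FinFr.charRev (FinFr.frob (K := K) b (FinFr.constLam (ZMod p) Y) n)).map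
      (ASAlg.zmodHom k p hk) :=
  detRev_eq (K := K) p hk b φ hφ n t ht

end Groth.Agent.Sga4h.H913.ConstDetMain
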